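import Cfsg.Agent.OddLocal.WFunctor
import Cfsg.Agent.OddLocal.FittingParts
import Cfsg.Agent.CF.WellPlaced
import Cfsg.Agent.OddPre.Rank2

/-!
`N(W P)` controls transfer in a minimal simple group of odd order, and the derived subgroup of a
solvable group of odd order whose Fitting subgroup has all ranks at most two is nilpotent.
-/

set_option autoImplicit false

namespace Cfsg.Agent.OddLocal

open Subgroup
open scoped commutatorElement

variable {G : Type*} [Group G] [Finite G]

theorem stableW_conjBy (g : G) (R : Subgroup G) : stableW (conjBy g R) = conjBy g (stableW R) := by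
  refine le_antisymm ?_ (le_stableW (isStableAb_conjBy (isStableAb_stableW R) g))
  have h := le_stableW (isStableAb_conjBy (isStableAb_stableW (conjBy g R)) g⁻¹)
  rw [conjBy_inv_conjBy] at h
  have h2 := conjBy_mono (g := g) h
  rwa [conjBy_conjBy_inv] at h2

section MinSimple

variable (hG : Cfsg.IsMinSimpleOddOrder G)
include hG

theorem stableW_conjugacyFunctor (p : ℕ) [Fact p.Prime] :
    Cfsg.IsConjugacyFunctor p (stableW : Subgroup G → Subgroup G) := fun R hR =>
  ⟨(isStableAb_stableW R).1, (stableFactorData hG p).ne_bot R hR, fun g => stableW_conjBy g R⟩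

/-- A Sylow subgroup lies in the derived subgroup of `N(W P)`. -/
theorem sylow_le_commutator_normalizer {p : ℕ} [Fact p.Prime] (P : Sylow p G) :
    (P : Subgroup G) ≤ ⁅normalizer (stableW (P : Subgroup G) : Set G),
      normalizer (stableW (P : Subgroup G) : Set G)⁆ := by
  have hloc : ∀ T : Subgroup G, T ≠ ⊥ → Cfsg.IsWellPlaced p stableW (P : Subgroup G) T →
      Cfsg.ControlsTransferIn p (stableW : Subgroup G → Subgroup G) (CF.Nz T) := by
    intro T hT hwp
    set X := CF.Nz T
    have hX : X ≠ ⊤ :=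
      ms_normalizer_ne_top hG hT (ms_pGroup_ne_top hG (P.2.to_le hwp.1))
    obtain ⟨R, hR, -⟩ := Signalizer.exists_isSyl_ge (q := p) (X := X)
      (IsPGroup.of_bot (G := G) (p := p)) bot_le
    refine ⟨R, hR.le, hR.isPGroup, hR.not_dvd_relIndex, ?_⟩
    set N := X ⊓ normalizer (stableW R : Set G) with hN
    refine le_antisymm ?_ (inf_le_inf_left _ (Subgroup.commutator_mono inf_le_left inf_le_left))
    rintro r ⟨hrR, hr⟩
    refine ⟨hrR, ?_⟩
    have hfac := (stableFactorData hG p).factor X hX R hR
    change X ≤ Opp p X ⊔ N at hfac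
    have hOX : Opp p X ≤ X := piCoreOf_le _ _
    have hNO : N ≤ normalizer (Opp p X : Set G) :=
      inf_le_left.trans (le_normalizer_piCoreOf _ _)
    -- `X' ≤ O_{p'}(X) N'`
    have hXN : ⁅X, X⁆ ≤ Opp p X ⊔ ⁅N, N⁆ := by
      set O' := (Opp p X).subgroupOf X with hO'
      haveI : O'.Normal := (Subgroup.normal_subgroupOf_iff_le_normalizer hOX).2
        (le_normalizer_piCoreOf _ _)
      set q := QuotientGroup.mk' O'
      have hq : (N.subgroupOf X).map q = ⊤ := by
        rw [eq_top_iff]
        intro y _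
        obtain ⟨⟨x, hx⟩, rfl⟩ := QuotientGroup.mk'_surjective O' y
        obtain ⟨o, ho, n, hn, rfl⟩ : ∃ o ∈ Opp p X, ∃ n ∈ N, o * n = x := by
          have h := hfac hx
          rw [← SetLike.mem_coe, coe_mul_of_right_le_normalizer_left (Opp p X) N hNO] at h
          exact Set.mem_mul.1 h
        refine ⟨⟨n, hn.1⟩, hn, QuotientGroup.eq.2 ?_⟩
        show n⁻¹ * (o * n) ∈ Opp p X
        rw [← mul_assoc]
        simpa using (Subgroup.mem_normalizer_iff.1 (hNO (N.inv_mem hn)) o).1 ho
      rw [← Subgroup.map_subtype_commutator]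
      rintro _ ⟨z, hz, rfl⟩
      have hz' : q z ∈ ⁅(N.subgroupOf X).map q, (N.subgroupOf X).map q⁆ := by
        rw [hq, ← commutator_def]
        exact (Subgroup.map_commutator (⊤ : Subgroup X) ⊤ q).le.trans
          (Subgroup.commutator_mono le_top le_top) (Subgroup.mem_map_of_mem q hz)
      rw [← Subgroup.map_commutator] at hz'
      obtain ⟨y, hy, hyz⟩ := hz'
      have hyN : (y : G) ∈ ⁅N, N⁆ := by
        have h1 : ((⁅N.subgroupOf X, N.subgroupOf X⁆).map X.subtype) ≤ ⁅N, N⁆ := by
          rw [Subgroup.map_commutator, Subgroup.map_subgroupOf_eq_of_le (inf_le_left : N ≤ X)]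
        exact h1 (Subgroup.mem_map_of_mem _ hy)
      have hd : (z : G) * (y : G)⁻¹ ∈ Opp p X := by
        have : z * y⁻¹ ∈ O' := by
          rw [← QuotientGroup.eq_one_iff]
          show q (z * y⁻¹) = 1
          rw [map_mul, map_inv, hyz, mul_inv_cancel]
        exact this
      have := Subgroup.mul_mem_sup hd hyN
      rwa [inv_mul_cancel_right] at this
    obtain ⟨o, ho, n, hn, hon⟩ : ∃ o ∈ Opp p X, ∃ n ∈ ⁅N, N⁆, o * n = r := by
      have h := hXN hr
      rw [← SetLike.mem_coe, coe_mul_of_right_le_normalizer_left (Opp p X) ⁅N, N⁆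
        ((Subgroup.commutator_le_self N).trans hNO)] at h
      exact Set.mem_mul.1 h
    have hrN : r ∈ N :=
      ⟨hR.le hrR, normalizer_le_normalizer_stableW R (Subgroup.le_normalizer hrR)⟩
    have hoN : o ∈ N := by
      have h := N.mul_mem hrN (N.inv_mem (Subgroup.commutator_le_self N hn))
      rwa [← hon, mul_inv_cancel_right] at h
    refine mem_commutator_of_coprime hrN hoN ?_ ?_
    · obtain ⟨k, hk⟩ := hR.isPGroup.exists_card_eq
      have h1 : orderOf r ∣ p ^ k := hk ▸ Subgroup.orderOf_dvd_natCard _ hrR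
      have h2 : (orderOf o).Coprime p := (coprime_of_isPi_primesNe (isPi_piCoreOf _ X)).coprime_dvd_left
        (Subgroup.orderOf_dvd_natCard _ ho)
      exact ((h2.pow_right k).coprime_dvd_right h1).symm
    · rw [← hon]
      simpa [mul_assoc] using ⁅N, N⁆.inv_mem hn
  have h := CF.trIn_of_wellPlaced (S := P) (stableW_conjugacyFunctor hG p) hloc
  have hG' : ⁅(⊤ : Subgroup G), (⊤ : Subgroup G)⁆ = (⊤ : Subgroup G) := by
    haveI := ms_isSimple hG
    rcases IsSimpleGroup.eq_bot_or_eq_top_of_normal (commutator G) inferInstance with h | h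
    · exfalso
      refine hG.2.2.1 ⟨⟨fun a b => ?_⟩⟩
      exact commutatorElement_eq_one_iff_mul_comm.1
        (Subgroup.mem_bot.1 (h ▸ Subgroup.commutator_mem_commutator (Subgroup.mem_top a)
          (Subgroup.mem_top b)))
    · exact h
  unfold CF.TrIn CF.TrT at h
  simp only [iSup_singleton, hG', inf_top_eq, top_inf_eq] at h
  exact h.trans inf_le_right

/-- A `q'`-element of the derived subgroup of `X` centralizes every `q`-subgroup of rank at most
two normalized by `X`. -/
theorem centralizes_of_mem_derived {q : ℕ} [Fact q.Prime] {X R : Subgroup G} (hR : IsPGroup q R)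
    (hr : Cfsg.PRankLE q 2 R) (hXR : X ≤ normalizer (R : Set G)) {x : G} (hx : x ∈ ⁅X, X⁆)
    (hco : (orderOf x).Coprime q) : x ∈ centralizer (R : Set G) := by
  by_cases hR0 : R = ⊥
  · rw [hR0, Subgroup.mem_centralizer_iff]
    intro y hy
    rw [Subgroup.mem_bot.1 hy, one_mul, mul_one]
  · exact OddPre.Rank2.centralizes_of_commutator (ne_two_of_pGroup hG hR hR0) R X hR hr hXR
      (ms_odd_card hG X) hx hco

/-- If all ranks of `F(L)` are at most two then `L'` is contained in `F(L)`. -/
theorem derived_le_fittingOf {L : Subgroup G} (hL : L ≠ ⊤)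
    (hr : ∀ q : ℕ, q.Prime → Cfsg.PRankLE q 2 (Fp L q)) : ⁅L, L⁆ ≤ Cfsg.fittingOf L := by
  haveI := ms_solvable hG hL
  have hDL : ⁅L, L⁆ ≤ L := Subgroup.commutator_le_self L
  refine Signalizer.le_of_forall_isSyl_le fun q hq => ?_
  haveI : Fact q.Prime := ⟨hq⟩
  obtain ⟨Q, hQ, -⟩ := Signalizer.exists_isSyl_ge (q := q) (X := ⁅L, L⁆)
    (IsPGroup.of_bot (G := G) (p := q)) bot_le
  refine ⟨Q, hQ, ?_⟩
  set C := centralizer (FpCompl L q : Set G) with hC
  set K := ⁅L, L⁆ ⊓ C with hK
  have hQK : Q ≤ K := by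
    refine le_inf hQ.le fun x hx => ?_
    show x ∈ centralizer (FpCompl L q : Set G)
    rw [Subgroup.mem_centralizer_iff]
    have hle : FpCompl L q ≤ centralizer ({x} : Set G) := by
      refine iSup_le fun s => ?_
      haveI : Fact (s.1 : ℕ).Prime := ⟨s.1.2⟩
      intro y hy
      rw [Subgroup.mem_centralizer_singleton_iff]
      refine Subgroup.mem_centralizer_iff.1 (centralizes_of_mem_derived hG (isPGroup_Fp L _)
        (hr _ s.1.2) (le_normalizer_Fp L _) (hQ.le hx) ?_) y hy
      obtain ⟨k, hk⟩ := hQ.isPGroup.exists_card_eq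
      exact (((Nat.coprime_primes hq s.1.2).2 (Ne.symm s.2)).pow_left k).coprime_dvd_left
        (hk ▸ Subgroup.orderOf_dvd_natCard _ hx)
    exact fun y hy => Subgroup.mem_centralizer_singleton_iff.1 (hle hy)
  refine hQK.trans ?_
  -- `K` is normal nilpotent
  have hKL : K ≤ L := inf_le_left.trans hDL
  have hKn : L ≤ normalizer (K : Set G) := by
    refine (le_inf ?_ ?_).trans inf_normalizer_le_normalizer_inf
    · exact (Subgroup.normal_subgroupOf_iff_le_normalizer hDL).1
        (by rw [← Subgroup.map_subtype_commutator, Subgroup.subgroupOf,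
          Subgroup.comap_map_eq_self_of_injective L.subtype_injective]; infer_instance)
    · exact (le_normalizer_FpCompl L q).trans (normalizer_le_normalizer_centralizer _)
  -- `q'`-elements of `K` centralize `F(L)`
  have hkey : ∀ x ∈ K, (orderOf x).Coprime q → x ∈ centralizer (Cfsg.fittingOf L : Set G) := by
    intro x hx hco
    have h1 : FpCompl L q ≤ centralizer ({x} : Set G) := fun y hy =>
      Subgroup.mem_centralizer_singleton_iff.2 (Subgroup.mem_centralizer_iff.1 hx.2 y hy)
    have h2 : Fp L q ≤ centralizer ({x} : Set G) := fun y hy =>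
      Subgroup.mem_centralizer_singleton_iff.2 (Subgroup.mem_centralizer_iff.1
        (centralizes_of_mem_derived hG (isPGroup_Fp L q) (hr q hq) (le_normalizer_Fp L q) hx.1 hco) y hy)
    rw [Subgroup.mem_centralizer_iff]
    intro y hy
    exact Subgroup.mem_centralizer_singleton_iff.1
      (((fittingOf_le_sup_FpCompl L q).trans (sup_le h2 h1)) hy)
  set Z : Subgroup K := (Cfsg.fittingOf L ⊓ centralizer (Cfsg.fittingOf L : Set G) ⊓
    centralizer (K : Set G)).subgroupOf K with hZ
  have hZc : Z ≤ Subgroup.center K := fun z hz =>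
    Subgroup.mem_center_iff.2 fun g => Subtype.ext (Subgroup.mem_centralizer_iff.1 hz.2 g g.2)
  haveI : Z.Normal := Subgroup.normal_subgroupOf_of_le_normalizer (by
    intro k hk
    have hkL := hKL hk
    exact inf_normalizer_le_normalizer_inf ⟨inf_normalizer_le_normalizer_inf
      ⟨le_normalizer_fittingOf' L hkL,
        normalizer_le_normalizer_centralizer _ (le_normalizer_fittingOf' L hkL)⟩,
      normalizer_le_normalizer_centralizer _ (Subgroup.le_normalizer hk)⟩)
  have hquot : IsPGroup q (K ⧸ Z) := by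
    intro y
    obtain ⟨⟨x, hx⟩, rfl⟩ := QuotientGroup.mk'_surjective Z y
    refine ⟨(orderOf x).factorization q, ?_⟩
    rw [← map_pow]
    refine (QuotientGroup.eq_one_iff _).2 ?_
    rw [hZ, Subgroup.mem_subgroupOf, Subgroup.coe_pow]
    show x ^ q ^ (orderOf x).factorization q ∈ _
    set w := x ^ q ^ (orderOf x).factorization q
    have hwK : w ∈ K := K.pow_mem hx _
    have hwco : (orderOf w).Coprime q := by
      rw [orderOf_pow' _ (pow_ne_zero _ hq.ne_zero),
        Nat.gcd_eq_right (Nat.ordProj_dvd (orderOf x) q)]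
      exact (Nat.coprime_ordCompl hq (orderOf_pos x).ne').symm
    have hwF := hkey w hwK hwco
    have hwFm : w ∈ Cfsg.fittingOf L := mem_fittingOf_of_commute inferInstance (hKL hwK)
      fun s hs y hy => by
        haveI : Fact s.Prime := ⟨hs⟩
        exact Subgroup.mem_centralizer_iff.1 hwF y (Fp_le_fittingOf L s hy)
    have hwc : w ∈ FpCompl L q := by
      obtain ⟨a, ha, b, hb, hab⟩ := exists_mul_fittingOf hwFm (q := q)
      obtain ⟨k, hk⟩ := (isPGroup_Fp L q).exists_card_eq
      have hcab : Commute a b := by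
        have hle : FpCompl L q ≤ centralizer ({a} : Set G) := iSup_le fun s y hy => by
          haveI : Fact (s.1 : ℕ).Prime := ⟨s.1.2⟩
          exact Subgroup.mem_centralizer_singleton_iff.2 (Fp_commute s.2 hy ha)
        exact (Subgroup.mem_centralizer_singleton_iff.1 (hle hb)).symm
      have ho : orderOf w = orderOf a * orderOf b := by
        rw [hab]
        refine hcab.orderOf_mul_eq_mul_orderOf_of_coprime ?_
        exact ((FpCompl_coprime L (q := q)).symm.pow_left k |>.coprime_dvd_left
          (hk ▸ Subgroup.orderOf_dvd_natCard _ ha)).coprime_dvd_right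
          (Subgroup.orderOf_dvd_natCard _ hb)
      have ha1 : a = 1 := orderOf_eq_one_iff.1 (Nat.eq_one_of_dvd_coprimes
        ((hwco.coprime_dvd_left (ho ▸ dvd_mul_right _ _ : orderOf a ∣ orderOf w)).pow_right k)
        dvd_rfl (hk ▸ Subgroup.orderOf_dvd_natCard _ ha))
      rw [hab, ha1, one_mul]
      exact hb
    refine ⟨⟨hwFm, hwF⟩, ?_⟩
    show w ∈ centralizer (K : Set G)
    rw [Subgroup.mem_centralizer_iff]
    exact fun k hk => (Subgroup.mem_centralizer_iff.1 hk.2 w hwc).symm
  haveI : Group.IsNilpotent (K ⧸ Z) := hquot.isNilpotent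
  haveI : Group.IsNilpotent K := Subgroup.isNilpotent_of_ker_le_center (QuotientGroup.mk' Z)
    (by rwa [QuotientGroup.ker_mk'])
  intro x hx
  exact ⟨⟨x, hKL hx⟩, Cores.le_fittingSubgroup
    ((Subgroup.normal_subgroupOf_iff_le_normalizer hKL).2 hKn)
    (Group.nilpotent_of_mulEquiv (Subgroup.subgroupOfEquivOfLe hKL).symm) hx, rfl⟩

end MinSimple

end Cfsg.Agent.OddLocal
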